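import Cfsg.Agent.H959.T5.Tools
import Cfsg.Agent.H841.SY.Fi24
import Cfsg.Agent.H492.IMHeCnt

/-!
# S3854: the row `Fi24'` (helper841)

`He` (for `p = 5, 7, 17`) and `Fi23` (for `p = 11, 13, 23`) are simple subgroups of index prime to `p`; `p = 29`: an
element of order 8 (of `He`), as 8 does not divide 28.
-/

set_option autoImplicit false
set_option maxRecDepth 100000

namespace Cfsg.Agent.H841.SY

open Cfsg Subgroup Cfsg.Agent.H459.Rad Cfsg.Agent.H459.Iface Cfsg.Agent.H301.SY Cfsg.Agent.H959.T5

/-- a proper non-abelian simple subgroup of index prime to `p` -/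
theorem noTE_of_hom {Q K : Type*} [Group Q] [Finite Q] [IsSimpleGroup Q] [Group K] [Finite K] {p : ℕ} [hp : Fact p.Prime]
    (hQ : ¬ Group.IsSolvable Q) (f : Q →* K) (hf : Function.Injective f) {m : ℕ}
    (hm : Nat.card K = Nat.card Q * m) (hm1 : m ≠ 1) (hpm : ¬ p ∣ m) : NoTE p K := by
  have e : Q ≃* f.range := MonoidHom.ofInjective hf
  have hcL : Nat.card f.range = Nat.card Q := (Nat.card_congr e.toEquiv).symm
  have hidx : f.range.index = m := by
    have h1 := f.range.card_mul_index
    rw [hcL, hm] at h1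
    exact Nat.eq_of_mul_eq_mul_left Nat.card_pos h1
  obtain ⟨S⟩ : Nonempty (Sylow p f.range) := inferInstance
  have hS : IsPGroup p ↥((S : Subgroup f.range).map f.range.subtype) := S.isPGroup'.map _
  have hc : ¬ p ∣ ((S : Subgroup f.range).map f.range.subtype).index := by
    rw [← relIndex_mul_index (map_subtype_le (S : Subgroup f.range)), hp.out.dvd_mul, not_or]
    refine ⟨?_, by rw [hidx]; exact hpm⟩
    have h1 : ((S : Subgroup f.range).map f.range.subtype).relIndex f.range = (S : Subgroup f.range).index := by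
      rw [relIndex, subgroupOf, comap_map_eq_self_of_injective f.range.subtype_injective]
    rw [h1]
    exact S.not_dvd_index
  let P : Sylow p K := hS.toSylow hc
  refine NoTE.of_sylow (L := f.range) ?_ P ?_ ?_
  · intro h
    apply hm1
    rw [← hidx, h, index_top]
  · show (S : Subgroup f.range).map f.range.subtype ≤ f.range
    exact map_subtype_le _
  · have h1 : solvableRadical f.range = ⊥ := by
      rw [eq_bot_iff]
      intro z hz
      have h2 := map_rad_le (f := e.symm.toMonoidHom) e.symm.surjective hz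
      rw [rad_eq_bot_of_simple hQ, mem_bot] at h2
      rw [mem_bot]
      exact e.symm.injective (h2.trans (map_one e.symm).symm)
    unfold radIn
    rw [h1, Subgroup.map_bot, card_bot]
    intro h
    exact hp.out.one_lt.ne' (Nat.dvd_one.1 h)

open Cfsg.Agent.SporadicB.HePerm (wd) in
/-- an element of order 8 of `He` -/
theorem he_eight : orderOf (wd [.f, .d, .b, .c, .d, .c, .b, .a]) = 8 :=
  Cfsg.Agent.H492.IMHeCnt.orderOf_of (by decide) (by decide +kernel)

/-- **the row `Fi24'` of S3854** -/
theorem noTE_fi24 {K : Type*} [Group K] [Finite K] [IsSimpleGroup K] (h : Cfsg.Spor.IsoFi24' K) {p : ℕ} [Fact p.Prime]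
    (hp : 5 ≤ p) (hb : Cfsg.Agent.H301.SY.Blk p K) (_hO : Cfsg.Agent.H301.SY.ThO p K) :
    Cfsg.Agent.H959.T5.NoTE p K := by
  obtain ⟨e⟩ := h
  have hfin : Finite Spor.Fi24' := Finite.of_equiv K e.toEquiv
  have hK : Nat.card K = 1255205709190661721292800 := (Nat.card_congr e.toEquiv).trans card_fi24'
  by_cases hpd : p ∣ Nat.card K
  swap
  · intro x hx _ _
    exact hpd (hx ▸ orderOf_dvd_natCard x)
  have h95 := Cfsg.Agent.S1695.result
  have h97 := Cfsg.Agent.S1697.result
  have hHe : IsSimpleGroup Spor.He := h95.1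
  have h23 : IsSimpleGroup Spor.Fi23 := h97.1
  have cHe : Nat.card Spor.He = 4030387200 := h95.2
  have c23 : Nat.card Spor.Fi23 = 4089470473293004800 := h97.2
  have fHe : Finite Spor.He := Nat.finite_of_card_ne_zero (by rw [cHe]; norm_num)
  have f23 : Finite Spor.Fi23 := Nat.finite_of_card_ne_zero (by rw [c23]; norm_num)
  have sHe : ¬ Group.IsSolvable Spor.He := not_solvable (by
    rw [cHe]
    intro hp
    exact absurd ((Nat.prime_dvd_prime_iff_eq Nat.prime_two hp).1 (by norm_num)) (by norm_num))
  have s23 : ¬ Group.IsSolvable Spor.Fi23 := not_solvable (by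
    rw [c23]
    intro hp
    exact absurd ((Nat.prime_dvd_prime_iff_eq Nat.prime_two hp).1 (by norm_num)) (by norm_num))
  have caseHe : ¬ p ∣ 311435513985024 → NoTE p K := by
    intro hm
    obtain ⟨f, hf⟩ := exists_he
    exact NoTE.congr e (noTE_of_hom sHe f hf (m := 311435513985024) (by rw [card_fi24', cHe]) (by norm_num) hm)
  have case23 : ¬ p ∣ 306936 → NoTE p K := by
    intro hm
    obtain ⟨f, hf⟩ := exists_fi23
    exact NoTE.congr e (noTE_of_hom s23 f hf (m := 306936) (by rw [card_fi24', c23]) (by norm_num) hm)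
  rcases prime_cases (Fact.out : p.Prime) hp (hK ▸ hpd) with rfl | rfl | rfl | rfl | rfl | rfl | rfl
  · exact caseHe (by norm_num)
  · exact caseHe (by norm_num)
  · exact case23 (by norm_num)
  · exact case23 (by norm_num)
  · exact case23 (by norm_num)
  · exact case23 (by norm_num)
  · obtain ⟨f, hf⟩ := exists_he
    refine NoTE.of_orderOf (cyclic_of_card (by rw [hK]; norm_num)) hb (by norm_num)
      (y := e.symm (f (Cfsg.Agent.SporadicB.HePerm.wd [.f, .d, .b, .c, .d, .c, .b, .a]))) (k := 3) ?_ (by norm_num)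
    have h1 := orderOf_injective e.symm.toMonoidHom e.symm.injective
      (f (Cfsg.Agent.SporadicB.HePerm.wd [.f, .d, .b, .c, .d, .c, .b, .a]))
    rw [orderOf_injective f hf, he_eight] at h1
    exact h1

end Cfsg.Agent.H841.SY
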